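import Mathlib

/-!
A group of automorphisms of order prime to six, normalized by an automorphism of order three that moves
exactly a four-group, of an elementary abelian 2-group.
-/

set_option autoImplicit false
set_option linter.style.haveILetI false

namespace CfsgLib.MovingFour

variable {U : Type*} [CommGroup U]

/-- `u ↦ a u * u⁻¹`. -/
def delta (a : MulAut U) : U →* U where
  toFun u := a u * u⁻¹
  map_one' := by simp
  map_mul' u v := by rw [map_mul, mul_inv, mul_mul_mul_comm]

theorem delta_apply (a : MulAut U) (u : U) : delta a u = a u * u⁻¹ := rfl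

theorem delta_eq_one {a : MulAut U} {u : U} : delta a u = 1 ↔ a u = u := by
  rw [delta_apply, mul_inv_eq_one]

theorem delta_comm {a b : MulAut U} (h : a * b = b * a) (u : U) :
    delta a (b u) = b (delta a u) := by
  simp only [delta_apply, map_mul, map_inv]
  rw [← MulAut.mul_apply, h, MulAut.mul_apply]

theorem delta_delta {a b : MulAut U} (h : a * b = b * a) (u : U) :
    delta a (delta b u) = delta b (delta a u) := by
  rw [delta_apply b u, map_mul, map_inv, delta_comm h, ← delta_apply]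

theorem delta_mul {a b : MulAut U} {u : U} (h : a (b u) = b u) : delta (a * b) u = delta b u := by
  rw [delta_apply, delta_apply, MulAut.mul_apply, h]

theorem pow_fixed {a : MulAut U} {u : U} (h : a u = u) : ∀ n : ℕ, (a ^ n) u = u := by
  intro n
  induction n with
  | zero => rfl
  | succ n ih => rw [pow_succ, MulAut.mul_apply, h, ih]

/-- A coprime automorphism fixing `a u * u⁻¹` fixes `u`. -/
theorem eq_of_delta_fixed (hU : ∀ u : U, u ^ 2 = 1) {q : ℕ} (hq : Odd q) {a : MulAut U}
    (ha : a ^ q = 1) {u : U} (h : a (delta a u) = delta a u) : a u = u := by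
  have key : ∀ n : ℕ, (a ^ n) u = delta a u ^ n * u := by
    intro n
    induction n with
    | zero => simp
    | succ n ih =>
      rw [pow_succ', MulAut.mul_apply, ih, map_mul, map_pow, h, pow_succ, mul_assoc, delta_apply,
        inv_mul_cancel_right]
  have h1 : delta a u ^ q = 1 := by
    have := key q
    rw [ha, MulAut.one_apply] at this
    exact mul_eq_right.1 this.symm
  obtain ⟨k, rfl⟩ := hq
  rw [pow_add, pow_mul, hU, one_pow, one_mul, pow_one] at h1
  exact delta_eq_one.1 h1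

theorem fix_of_pow {p : ℕ} [hp : Fact p.Prime] {a : MulAut U} (ha : a ^ p = 1) {k : ℕ} (hk : ¬ p ∣ k)
    {u : U} (h : (a ^ k) u = u) : a u = u := by
  have hcop : k.Coprime (orderOf a) :=
    ((hp.out.coprime_iff_not_dvd).2 hk).symm.coprime_dvd_right (orderOf_dvd_of_pow_eq_one ha)
  obtain ⟨t, ht⟩ := exists_pow_eq_self_of_coprime hcop
  rw [← ht]
  exact pow_fixed h t

/-- An invariant subgroup moved by an automorphism of order `p ≥ 5` has at least six elements. -/
theorem six_le [Finite U] {p : ℕ} [hp : Fact p.Prime] (hp5 : 5 ≤ p) {a : MulAut U} (ha : a ^ p = 1)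
    {K : Subgroup U} (hK : ∀ u ∈ K, a u ∈ K) {d : U} (hd : d ∈ K) (hmov : a d ≠ d) :
    6 ≤ Nat.card K := by
  have hmem : ∀ n : ℕ, (a ^ n) d ∈ K := by
    intro n
    induction n with
    | zero => exact hd
    | succ n ih => rw [pow_succ', MulAut.mul_apply]; exact hK _ ih
  let f : Option (Fin p) → K := fun o => o.elim 1 fun i => ⟨(a ^ (i : ℕ)) d, hmem _⟩
  have hd1 : ∀ n : ℕ, (a ^ n) d ≠ 1 := by
    intro n h
    rw [map_eq_one_iff _ (a ^ n).injective] at h
    exact hmov (by rw [h, map_one])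
  have hne : ∀ i j : Fin p, (i : ℕ) < j → (a ^ (i : ℕ)) d ≠ (a ^ (j : ℕ)) d := by
    intro i j hij h
    have h2 : (a ^ (i : ℕ)) d = (a ^ (i : ℕ)) ((a ^ ((j : ℕ) - i)) d) := by
      rw [← MulAut.mul_apply, ← pow_add, Nat.add_sub_cancel' hij.le, h]
    refine hmov (fix_of_pow ha ?_ ((a ^ (i : ℕ)).injective h2.symm))
    intro hdvd
    have := Nat.le_of_dvd (by omega) hdvd
    omega
  have hf : Function.Injective f := by
    rintro (_ | i) (_ | j) h <;> simp only [f, Option.elim_none, Option.elim_some, Subtype.ext_iff,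
      OneMemClass.coe_one] at h
    · rfl
    · exact absurd h.symm (hd1 _)
    · exact absurd h (hd1 _)
    · rcases lt_trichotomy (i : ℕ) j with hij | hij | hij
      · exact absurd h (hne i j hij)
      · rw [Fin.ext hij]
      · exact absurd h.symm (hne j i hij)
  have := Nat.card_le_card_of_injective f hf
  rw [Finite.card_option, Nat.card_fin] at this
  omega

/-- A commutative group of exponent `p ≥ 5` acts on a group of order at most sixteen through at most `p` automorphisms. -/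
theorem card_range_le [Finite U] (hU : ∀ u : U, u ^ 2 = 1) {p : ℕ} [hp : Fact p.Prime] (hp5 : 5 ≤ p)
    {Z : Type*} [Group Z] [Finite Z] (hc : ∀ a b : Z, a * b = b * a) (hexp : ∀ a : Z, a ^ p = 1)
    (φ : Z →* MulAut U) (hcard : Nat.card U ≤ 16) : Nat.card φ.range ≤ p := by
  by_contra hgt
  push Not at hgt
  have hexp' : ∀ a ∈ φ.range, a ^ p = 1 := by
    rintro _ ⟨z, rfl⟩
    rw [← map_pow, hexp, map_one]
  have hR : IsPGroup p φ.range := fun a => ⟨1, Subtype.ext (by rw [pow_one]; exact hexp' a a.2)⟩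
  obtain ⟨k, hk⟩ := hR.exists_card_eq
  have hk2 : 2 ≤ k := by
    by_contra h
    push Not at h
    interval_cases k
    · rw [pow_zero] at hk; omega
    · rw [pow_one] at hk; omega
  have hbig : 16 < Nat.card φ.range := by
    rw [hk]
    have h1 : 5 ^ 2 ≤ p ^ 2 := Nat.pow_le_pow_left hp5 2
    have h2 : p ^ 2 ≤ p ^ k := Nat.pow_le_pow_right hp.out.pos hk2
    omega
  haveI : Nontrivial φ.range := Finite.one_lt_card_iff_nontrivial.1 (by omega)
  obtain ⟨⟨a, ha⟩, ha1⟩ := exists_ne (1 : φ.range)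
  obtain ⟨d, hmov⟩ : ∃ d, a d ≠ d := by
    by_contra h
    push Not at h
    exact ha1 (Subtype.ext (MulEquiv.ext h))
  obtain ⟨r, s, hrs, heq⟩ : ∃ r s : φ.range, r ≠ s ∧ (r : MulAut U) d = (s : MulAut U) d := by
    by_contra h
    push Not at h
    have hinj : Function.Injective fun r : φ.range => (r : MulAut U) d := fun r s hrs => by
      by_contra hne
      exact h r s hne hrs
    have := Nat.card_le_card_of_injective _ hinj
    omega
  set c : φ.range := s⁻¹ * r with hcdef
  have hc1 : (c : MulAut U) ≠ 1 := fun h => hrs (by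
    have : c = 1 := Subtype.ext h
    exact (inv_mul_eq_one.1 this).symm)
  have hcd : (c : MulAut U) d = d := by
    rw [hcdef, Subgroup.coe_mul, Subgroup.coe_inv, MulAut.mul_apply, heq]
    exact (s : MulAut U).symm_apply_apply d
  have hac : (c : MulAut U) * a = a * c := by
    obtain ⟨x, hx⟩ := c.2
    obtain ⟨y, hy⟩ := ha
    rw [← hx, ← hy, ← map_mul, ← map_mul, hc]
  have h6 := six_le hp5 (hexp' a ha) (K := (delta (c : MulAut U)).ker) (fun u hu => by
    rw [MonoidHom.mem_ker] at hu ⊢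
    rw [delta_comm hac, hu, map_one]) (MonoidHom.mem_ker.2 (delta_eq_one.2 hcd)) hmov
  have hidx := Subgroup.card_mul_index (delta (c : MulAut U)).ker
  rw [Subgroup.index_ker] at hidx
  have h2 : Nat.card (delta (c : MulAut U)).range ≤ 2 := by
    by_contra h
    push Not at h
    have := Nat.mul_le_mul h6 h
    omega
  apply hc1
  refine MulEquiv.ext fun u => ?_
  have hodd : Odd p := hp.out.odd_of_ne_two (by omega)
  refine eq_of_delta_fixed hU hodd (hexp' c c.2) ?_
  set e := delta (c : MulAut U) u with he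
  by_cases he1 : e = 1
  · rw [he1, map_one]
  by_contra hne
  have hmem : ∀ v ∈ (delta (c : MulAut U)).range, (c : MulAut U) v ∈ (delta (c : MulAut U)).range := by
    rintro _ ⟨v, rfl⟩
    exact ⟨(c : MulAut U) v, delta_comm rfl v⟩
  have := six_le hp5 (hexp' c c.2) hmem ⟨u, rfl⟩ hne
  omega

theorem exists_delta_eq [Finite U] (hU : ∀ u : U, u ^ 2 = 1) {q : ℕ} (hq : Odd q) {a : MulAut U}
    (ha : a ^ q = 1) (u : U) : ∃ e ∈ (delta a).range, delta a e = delta a u := by
  let f : (delta a).range → (delta a).range := fun v => ⟨delta a v, v, rfl⟩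
  have hf : Function.Injective f := by
    rintro ⟨_, x, rfl⟩ ⟨_, y, rfl⟩ h
    have h1 : delta a (delta a (x * y⁻¹)) = 1 := by
      rw [map_mul, map_mul, map_inv, map_inv, mul_inv_eq_one]
      exact congrArg Subtype.val h
    have h2 := delta_eq_one.2 (eq_of_delta_fixed hU hq ha (delta_eq_one.1 h1))
    rw [map_mul, map_inv, mul_inv_eq_one] at h2
    exact Subtype.ext h2
  obtain ⟨e, he⟩ := Finite.injective_iff_surjective.1 hf ⟨delta a u, u, rfl⟩
  exact ⟨e, e.2, congrArg Subtype.val he⟩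

/-- A commutative exponent `p` group all whose nontrivial elements move at most sixteen differences is cyclic. -/
theorem card_le_of_bounded [Finite U] (hU : ∀ u : U, u ^ 2 = 1) {p : ℕ} [hp : Fact p.Prime] (hp5 : 5 ≤ p)
    {Z : Subgroup (MulAut U)} (hc : ∀ a ∈ Z, ∀ b ∈ Z, a * b = b * a) (hexp : ∀ a ∈ Z, a ^ p = 1)
    (hbd : ∀ a ∈ Z, a ≠ 1 → Nat.card (delta a).range ≤ 16) : Nat.card Z ≤ p := by
  by_contra hgt
  push Not at hgt
  haveI : Nontrivial Z := Finite.one_lt_card_iff_nontrivial.1 (by have := hp.out.one_lt; omega)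
  obtain ⟨⟨a, ha⟩, ha1⟩ := exists_ne (1 : Z)
  have ha1' : a ≠ 1 := fun h => ha1 (Subtype.ext h)
  have hodd : Odd p := hp.out.odd_of_ne_two (by omega)
  set D := (delta a).range with hD
  have hDinv : ∀ b ∈ Z, ∀ d ∈ D, b d ∈ D := by
    rintro b hb _ ⟨u, rfl⟩
    exact ⟨b u, delta_comm (hc a ha b hb) u⟩
  let φ : Z →* MulAut D :=
    { toFun := fun b =>
        { toFun := fun d => ⟨(b : MulAut U) d, hDinv b b.2 d d.2⟩
          invFun := fun d => ⟨((b⁻¹ : Z) : MulAut U) d, hDinv _ (b⁻¹).2 d d.2⟩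
          left_inv := fun d => Subtype.ext ((b : MulAut U).symm_apply_apply d)
          right_inv := fun d => Subtype.ext ((b : MulAut U).apply_symm_apply d)
          map_mul' := fun d e => Subtype.ext (map_mul (b : MulAut U) (d : U) e) }
      map_one' := rfl
      map_mul' := fun b c => rfl }
  have hr := card_range_le (U := D) (fun d => Subtype.ext (hU d)) hp5
    (fun x y : Z => Subtype.ext (hc x x.2 y y.2)) (fun x => Subtype.ext (hexp x x.2)) φ (hbd a ha ha1')
  have hk : φ.ker ≠ ⊥ := by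
    intro h
    rw [← Nat.card_congr (MonoidHom.ofInjective ((MonoidHom.ker_eq_bot_iff φ).1 h)).toEquiv] at hr
    omega
  obtain ⟨⟨c, hcZ⟩, hck, hc1⟩ := (Subgroup.ne_bot_iff_exists_ne_one).1 hk |>.imp'
    (q := fun x : Z => x ∈ φ.ker ∧ x ≠ 1) Subtype.val (fun x hx => ⟨x.2, fun h => hx (Subtype.ext h)⟩)
  have hc1' : c ≠ 1 := fun h => hc1 (Subtype.ext h)
  have hcD : ∀ d ∈ D, c d = d := fun d hd =>
    congrArg Subtype.val (DFunLike.congr_fun (MonoidHom.mem_ker.1 hck) ⟨d, hd⟩)
  have hca : c * a = a * c := hc c hcZ a ha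
  have haDc : ∀ e ∈ (delta c).range, a e = e := by
    rintro _ ⟨u, rfl⟩
    refine delta_eq_one.1 ?_
    rw [delta_delta hca.symm]
    exact delta_eq_one.2 (hcD _ ⟨u, rfl⟩)
  have hac1 : a * c ≠ 1 := by
    intro h
    apply ha1'
    refine MulEquiv.ext fun u => eq_of_delta_fixed hU hodd (hexp a ha) ?_
    have := congrArg (fun m : MulAut U => m (delta a u)) h
    simpa [MulAut.mul_apply, hcD _ ⟨u, rfl⟩] using this
  have hle1 : D ≤ (delta (a * c)).range := by
    rintro _ ⟨u, rfl⟩
    obtain ⟨e, he, hee⟩ := exists_delta_eq hU hodd (hexp a ha) u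
    refine ⟨e, ?_⟩
    rw [delta_apply, MulAut.mul_apply, hcD e he, ← delta_apply, hee]
  have hle2 : (delta c).range ≤ (delta (a * c)).range := by
    rintro _ ⟨u, rfl⟩
    obtain ⟨e, he, hee⟩ := exists_delta_eq hU hodd (hexp c hcZ) u
    refine ⟨e, ?_⟩
    rw [delta_mul (haDc _ ?_), hee]
    obtain ⟨v, rfl⟩ := he
    exact ⟨c v, delta_comm rfl v⟩
  have hmov : ∀ b ∈ Z, b ≠ 1 → 6 ≤ Nat.card (delta b).range := by
    intro b hb hb1
    obtain ⟨u, hu⟩ : ∃ u, b u ≠ u := by
      by_contra h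
      push Not at h
      exact hb1 (MulEquiv.ext h)
    refine six_le hp5 (hexp b hb) ?_ ⟨u, rfl⟩ fun h => hu (eq_of_delta_fixed hU hodd (hexp b hb) h)
    rintro _ ⟨v, rfl⟩
    exact ⟨b v, delta_comm rfl v⟩
  let g : D × (delta c).range → (delta (a * c)).range :=
    fun x => ⟨(x.1 : U) * x.2, mul_mem (hle1 x.1.2) (hle2 x.2.2)⟩
  have hg : Function.Injective g := by
    rintro ⟨x1, x2⟩ ⟨y1, y2⟩ h
    have h' : (x1 : U) * x2 = y1 * y2 := congrArg Subtype.val h
    have h1 : (x1 : U) * (y1 : U)⁻¹ = (y2 : U) * (x2 : U)⁻¹ := by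
      rw [← div_eq_mul_inv, ← div_eq_mul_inv, div_eq_div_iff_mul_eq_mul, h', mul_comm]
    obtain ⟨u, hu⟩ := mul_mem y2.2 (inv_mem x2.2)
    have hfix : c (delta c u) = delta c u := by
      rw [hu, ← h1]
      exact hcD _ (mul_mem x1.2 (inv_mem y1.2))
    have hone := delta_eq_one.2 (eq_of_delta_fixed hU hodd (hexp c hcZ) hfix)
    rw [hone] at hu
    have hxy2 : x2 = y2 := Subtype.ext (mul_inv_eq_one.1 hu.symm).symm
    subst hxy2
    exact Prod.ext (Subtype.ext (mul_right_cancel h')) rfl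
  have hprod := Nat.card_le_card_of_injective g hg
  rw [Nat.card_prod] at hprod
  have h36 : 6 * 6 ≤ Nat.card D * Nat.card (delta c).range :=
    Nat.mul_le_mul (hmov a ha ha1') (hmov c hcZ hc1')
  have := hbd _ (mul_mem ha hcZ) hac1
  omega

/-- The acting group is trivial or the group acted on has order at most sixteen. -/
theorem card_le_sixteen [Finite U] (hU : ∀ u : U, u ^ 2 = 1) {p : ℕ} [hp : Fact p.Prime] (hp5 : 5 ≤ p)
    (X : MulAut U) (hX : X ^ 3 = 1) (O : Subgroup (MulAut U)) (hO : IsPGroup p O) (hO1 : O ≠ ⊥)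
    (hnorm : ∀ a ∈ O, X * a * X⁻¹ ∈ O) (hW : Nat.card (delta X).range = 4)
    (hmin : ∀ D : Subgroup U, (∀ a ∈ O, ∀ d ∈ D, a d ∈ D) → (∀ d ∈ D, X d ∈ D) →
      (delta X).range ≤ D → D = ⊤) :
    Nat.card U ≤ 16 := by
  have hodd : Odd p := hp.out.odd_of_ne_two (by omega)
  set W := (delta X).range with hWdef
  have hXW : ∀ w ∈ W, X w ∈ W := by
    rintro _ ⟨v, rfl⟩
    exact ⟨X v, delta_comm rfl v⟩
  have hWle : ∀ D : Subgroup U, (∀ d ∈ D, X d ∈ D) → ∀ w ∈ W, w ∈ D → w ≠ 1 → W ≤ D := by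
    intro D hD w hwW hwD hw1
    have hne : X w ≠ w := by
      obtain ⟨v, rfl⟩ := hwW
      exact fun h => hw1 (delta_eq_one.2 (eq_of_delta_fixed hU (q := 3) (by decide) hX h))
    have hXw1 : X w ≠ 1 := fun h => hw1 (X.injective (by rw [h, map_one]))
    have hsub : ({1, w, X w} : Set U) ⊆ (W ⊓ D : Subgroup U) := by
      rintro v (rfl | rfl | rfl)
      exacts [one_mem _, ⟨hwW, hwD⟩, ⟨hXW w hwW, hD w hwD⟩]
    have h3 := Set.ncard_le_ncard hsub (Set.toFinite _)
    rw [Set.ncard_eq_three.2 ⟨1, w, X w, hw1.symm, hXw1.symm, hne.symm, rfl⟩, ← Nat.card_coe_set_eq] at h3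
    have hdvd : Nat.card ↥(W ⊓ D) ∣ 4 := hW ▸ Subgroup.card_dvd_of_le inf_le_left
    have h4 : Nat.card ↥(W ⊓ D) = 4 := by
      have := Nat.le_of_dvd (by norm_num) hdvd
      simp only [SetLike.coe_sort_coe] at h3
      interval_cases h : Nat.card ↥(W ⊓ D) <;> first | rfl | (norm_num at hdvd)
    have heq := Subgroup.eq_of_le_of_card_ge (inf_le_left : W ⊓ D ≤ W) (by rw [h4, hW])
    exact heq ▸ inf_le_right
  -- central elements of order dividing `p`
  have hnorm' : ∀ a ∈ O, X⁻¹ * a * X ∈ O := by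
    intro a ha
    have h2 := hnorm _ (hnorm a ha)
    have e : X⁻¹ = X * X := inv_eq_of_mul_eq_one_left (by rw [← hX, pow_three, mul_assoc])
    rw [e] at h2 ⊢
    have e2 : X = (X * X) * (X * X) := by
      rw [mul_assoc, ← mul_assoc X X X, show X * X * X = 1 by rw [← hX, pow_three, mul_assoc], mul_one]
    have e3 : X * X * a * X = X * (X * a * (X * X)) * (X * X) := by
      conv_lhs => rhs; rw [e2]
      simp only [mul_assoc]
    rw [e3]
    exact h2
  let Z : Subgroup (MulAut U) :=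
    { carrier := {z | z ∈ O ∧ z ^ p = 1 ∧ ∀ b ∈ O, z * b = b * z}
      one_mem' := ⟨one_mem _, one_pow _, fun b _ => by rw [one_mul, mul_one]⟩
      mul_mem' := fun {y z} hy hz => ⟨mul_mem hy.1 hz.1, by
          rw [(show Commute y z from hy.2.2 z hz.1).mul_pow, hy.2.1, hz.2.1, one_mul],
        fun b hb => by rw [mul_assoc, hz.2.2 b hb, ← mul_assoc, hy.2.2 b hb, mul_assoc]⟩
      inv_mem' := fun {z} hz => ⟨inv_mem hz.1, by rw [inv_pow, hz.2.1, inv_one],
        fun b hb => ((show Commute z b from hz.2.2 b hb).inv_left).eq⟩ }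
  have hZO : ∀ z ∈ Z, z ∈ O := fun z hz => hz.1
  have hZexp : ∀ z ∈ Z, z ^ p = 1 := fun z hz => hz.2.1
  have hZc : ∀ z ∈ Z, ∀ b ∈ O, z * b = b * z := fun z hz => hz.2.2
  have hZX : ∀ z ∈ Z, X * z * X⁻¹ ∈ Z := fun z hz => ⟨hnorm z hz.1, by
    rw [conj_pow, hz.2.1, mul_one, mul_inv_cancel], fun b hb => by
    have := hz.2.2 _ (hnorm' b hb)
    calc X * z * X⁻¹ * b = X * (z * (X⁻¹ * b * X)) * X⁻¹ := by group
      _ = X * ((X⁻¹ * b * X) * z) * X⁻¹ := by rw [this]
      _ = b * (X * z * X⁻¹) := by group⟩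
  have hkerinv : ∀ z ∈ Z, ∀ a ∈ O, ∀ d ∈ (delta z).ker, a d ∈ (delta z).ker := by
    intro z hz a ha d hd
    rw [MonoidHom.mem_ker] at hd ⊢
    rw [delta_comm (hZc z hz a ha), hd, map_one]
  have hcentX : ∀ z ∈ Z, X * z = z * X → z = 1 := by
    intro z hz hzX
    have hWk : W ≤ (delta z).ker := by
      intro w hw
      rw [MonoidHom.mem_ker, delta_eq_one]
      by_contra hne
      have := six_le hp5 (hZexp z hz) (K := W) (fun v hv => by
        obtain ⟨v', rfl⟩ := hv
        exact ⟨z v', delta_comm hzX v'⟩) hw hne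
      omega
    have htop := hmin _ (hkerinv z hz) (fun d hd => by
      rw [MonoidHom.mem_ker] at hd ⊢
      rw [delta_comm hzX.symm, hd, map_one]) hWk
    refine MulEquiv.ext fun u => delta_eq_one.1 ?_
    exact MonoidHom.mem_ker.1 (htop ▸ Subgroup.mem_top u)
  have hbd : ∀ c ∈ Z, c ≠ 1 → Nat.card (delta c).range ≤ 16 := by
    intro c hc hc1
    let F : Z → Z := fun z => ⟨X * z * X⁻¹ * (z : MulAut U)⁻¹, mul_mem (hZX z z.2) (inv_mem z.2)⟩
    have hF : Function.Injective F := by
      intro y z h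
      have h' : X * (y : MulAut U) * X⁻¹ * (y : MulAut U)⁻¹ = X * z * X⁻¹ * (z : MulAut U)⁻¹ :=
        congrArg Subtype.val h
      have hyz : (z : MulAut U)⁻¹ * y ∈ Z := mul_mem (inv_mem z.2) y.2
      have hcomm : (y : MulAut U) * (z : MulAut U) = z * y := hZc y y.2 z (hZO z z.2)
      have : (z : MulAut U)⁻¹ * y = 1 := by
        refine hcentX _ hyz ?_
        have h2 : X * ((z : MulAut U)⁻¹ * y) * X⁻¹ = (z : MulAut U)⁻¹ * y := by
          calc X * ((z : MulAut U)⁻¹ * y) * X⁻¹ = (X * z * X⁻¹)⁻¹ * (X * y * X⁻¹ * (y : MulAut U)⁻¹) * y := by group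
            _ = (z : MulAut U)⁻¹ * y := by rw [h']; group
        exact mul_inv_eq_iff_eq_mul.1 h2
      exact Subtype.ext (inv_mul_eq_one.1 this).symm
    obtain ⟨z, hz⟩ := Finite.injective_iff_surjective.1 hF ⟨c, hc⟩
    have hcz : c = X * (z : MulAut U) * X⁻¹ * (z : MulAut U)⁻¹ := (congrArg Subtype.val hz).symm
    let g : U →* W × W := (delta X).rangeRestrict.prod
      ((delta X).rangeRestrict.comp ((z : MulAut U)⁻¹).toMonoidHom)
    have hker : g.ker ≤ (delta c).ker := by
      intro u hu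
      rw [MonoidHom.mem_ker] at hu
      have h1 : X u = u := delta_eq_one.1 (congrArg (fun x : W × W => (x.1 : U)) hu)
      have h2 : X ((z : MulAut U)⁻¹ u) = (z : MulAut U)⁻¹ u :=
        delta_eq_one.1 (congrArg (fun x : W × W => (x.2 : U)) hu)
      rw [MonoidHom.mem_ker, delta_eq_one, hcz]
      simp only [MulAut.mul_apply]
      conv_lhs => rw [← h2]
      rw [show X⁻¹ (X ((z : MulAut U)⁻¹ u)) = (z : MulAut U)⁻¹ u from X.symm_apply_apply _,
        show (z : MulAut U) ((z : MulAut U)⁻¹ u) = u from (z : MulAut U).apply_symm_apply _, h1]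
    have hd := Subgroup.index_dvd_of_le hker
    rw [Subgroup.index_ker, Subgroup.index_ker] at hd
    refine (Nat.le_of_dvd Nat.card_pos hd).trans ((Subgroup.card_le_card_group _).trans ?_)
    rw [Nat.card_prod, hW]
  have hZp := card_le_of_bounded hU hp5 (fun a ha b hb => hZc a ha b (hZO b hb)) hZexp hbd
  haveI : Nontrivial O := (Subgroup.nontrivial_iff_ne_bot O).2 hO1
  haveI : Nontrivial (Subgroup.center O) := hO.center_nontrivial
  obtain ⟨n, hn0, hn⟩ := (hO.to_subgroup (Subgroup.center O)).nontrivial_iff_card.1 inferInstance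
  obtain ⟨c, hc⟩ := exists_prime_orderOf_dvd_card' p (hn ▸ dvd_pow_self p hn0.ne')
  set C : MulAut U := ((c : O) : MulAut U) with hCdef
  have hordC : orderOf C = p := by
    rw [hCdef, Subgroup.orderOf_coe, Subgroup.orderOf_coe, hc]
  have hCZ : C ∈ Z := ⟨c.1.2, hordC ▸ pow_orderOf_eq_one C, fun b hb =>
    (congrArg Subtype.val (Subgroup.mem_center_iff.1 c.2 ⟨b, hb⟩)).symm⟩
  have hC1 : C ≠ 1 := fun h => hp.out.ne_one (by rw [← hordC, h, orderOf_one])
  have hZeq : Z = Subgroup.zpowers C := (Subgroup.eq_of_le_of_card_ge (Subgroup.zpowers_le.2 hCZ)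
    (by rw [Nat.card_zpowers, hordC]; exact hZp)).symm
  have hXCinv : ∀ d, X (delta C d) ∈ (delta C).range := by
    intro d
    have hm := hZX C hCZ
    rw [hZeq] at hm
    obtain ⟨i, hi⟩ := (isOfFinOrder_of_finite C).mem_powers_iff_mem_zpowers.2 hm
    simp only at hi
    have hsucc : ∀ j : ℕ, ∀ v, delta (C ^ j) v ∈ (delta C).range := by
      intro j
      induction j with
      | zero => intro v; exact ⟨1, by rw [map_one, delta_apply, pow_zero, MulAut.one_apply, mul_inv_cancel]⟩
      | succ j ih =>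
        intro v
        have e : delta (C ^ (j + 1)) v = delta C ((C ^ j) v) * delta (C ^ j) v := by
          rw [delta_apply, delta_apply, delta_apply, pow_succ', MulAut.mul_apply, ← mul_assoc,
            inv_mul_cancel_right]
        rw [e]
        exact mul_mem ⟨_, rfl⟩ (ih v)
    have e : X (delta C d) = delta (C ^ i) (X d) := by
      rw [hi, delta_apply, delta_apply, MulAut.mul_apply, MulAut.mul_apply, map_mul, map_inv,
        show X⁻¹ (X d) = d from X.symm_apply_apply d]
    rw [e]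
    exact hsucc i _
  have hDinv : ∀ a ∈ O, ∀ d ∈ (delta C).range, a d ∈ (delta C).range := by
    rintro a ha _ ⟨v, rfl⟩
    exact ⟨a v, delta_comm (hZc C hCZ a ha) v⟩
  have hDX : ∀ d ∈ (delta C).range, X d ∈ (delta C).range := by
    rintro _ ⟨v, rfl⟩
    exact hXCinv v
  have hKX : ∀ d ∈ (delta C).ker, X d ∈ (delta C).ker := by
    intro d hd
    have hm := hZX C hCZ
    rw [hZeq] at hm
    obtain ⟨i, hi⟩ := (isOfFinOrder_of_finite C).mem_powers_iff_mem_zpowers.2 hm
    simp only at hi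
    rw [MonoidHom.mem_ker, delta_eq_one] at hd ⊢
    have hndvd : ¬ p ∣ i := by
      rintro ⟨j, rfl⟩
      rw [pow_mul, hZexp C hCZ, one_pow] at hi
      exact hC1 (by
        have := congrArg (fun m => X⁻¹ * m * X) hi.symm
        simpa [mul_assoc] using this)
    refine fix_of_pow (hZexp C hCZ) hndvd ?_
    rw [hi]
    simp only [MulAut.mul_apply]
    rw [show X⁻¹ (X d) = d from X.symm_apply_apply d, hd]
  obtain ⟨w, hwW, hw1, hwD⟩ : ∃ w ∈ W, w ≠ 1 ∧ w ∈ (delta C).range := by
    by_contra h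
    push Not at h
    have hD : ∀ e ∈ (delta C).range, delta X e = 1 := by
      intro e he
      by_contra hne
      exact h _ ⟨e, rfl⟩ hne (mul_mem (hDX e he) (inv_mem he))
    have hK : ∀ e ∈ (delta C).ker, delta X e = 1 := by
      intro e he
      by_contra hne
      have hWK := hWle _ hKX _ ⟨e, rfl⟩ (mul_mem (hKX e he) (inv_mem he)) hne
      have htop := hmin _ (hkerinv C hCZ) hKX hWK
      exact hC1 (MulEquiv.ext fun u => delta_eq_one.1 (MonoidHom.mem_ker.1 (htop ▸ Subgroup.mem_top u)))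
    have hall : ∀ u, delta X u = 1 := by
      intro u
      obtain ⟨e, he, hee⟩ := exists_delta_eq hU hodd (hZexp C hCZ) u
      have : e⁻¹ * u ∈ (delta C).ker := by
        rw [MonoidHom.mem_ker, map_mul, map_inv, hee, inv_mul_cancel]
      calc delta X u = delta X (e * (e⁻¹ * u)) := by rw [mul_inv_cancel_left]
        _ = 1 := by rw [map_mul, hD e he, hK _ this, one_mul]
    have hbot : W = ⊥ := by
      rw [eq_bot_iff]
      rintro _ ⟨u, rfl⟩
      exact Subgroup.mem_bot.2 (hall u)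
    rw [hbot, Subgroup.card_bot] at hW
    omega
  have htop := hmin _ hDinv hDX (hWle _ hDX w hwW hwD hw1)
  have := hbd C hCZ hC1
  rwa [htop, Subgroup.card_top] at this

end CfsgLib.MovingFour
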