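import Cfsg.Agent.MovingFour.Abstract
import Cfsg.Agent.CoprimeAction.Hyperplane
import Cfsg.Agent.PLocalBasics.AutRankTwo
import Cfsg.Agent.PCore.Basic
import Cfsg.Agent.Hall.Pi
import Cfsg.Agent.Hall.Fitting
import Cfsg.Agent.S0100

/-!
Odd elementary abelian subgroups centralizing the four-group moved by an element of order three modulo
the centralizer of a normal elementary abelian 2-subgroup of a solvable group.
-/

set_option autoImplicit false
set_option linter.style.haveILetI false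

namespace CfsgLib.MovingFour

variable {S : Type*} [Group S]

theorem not_isCyclic_of_lt [Finite S] {p : ℕ} [hp : Fact p.Prime] {F : Subgroup S}
    (hexp : ∀ a ∈ F, a ^ p = 1) (hF : p < Nat.card F) : ¬ IsCyclic F := by
  intro h
  obtain ⟨g, hg⟩ := h.exists_generator
  have h1 : Nat.card F ≤ p := by
    rw [← orderOf_eq_card_of_forall_mem_zpowers hg]
    exact Nat.le_of_dvd hp.out.pos (orderOf_dvd_of_pow_eq_one (Subtype.ext (hexp g g.2)))
  omega

theorem eq_of_lt_of_card [Finite S] {r : ℕ} [hr : Fact r.Prime] {A K L : Subgroup S} (hKL : K ≤ L)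
    (hLA : L ≤ A) (hne : ¬ L ≤ K) (hcard : Nat.card K * r = Nat.card A) : L = A := by
  obtain ⟨t, ht⟩ := Subgroup.card_dvd_of_le hKL
  have hd := Subgroup.card_dvd_of_le hLA
  rw [ht, ← hcard, Nat.mul_dvd_mul_iff_left Nat.card_pos, Nat.dvd_prime hr.out] at hd
  rcases hd with rfl | rfl
  · exact absurd (Subgroup.eq_of_le_of_card_ge hKL (by rw [ht, mul_one])).ge hne
  · exact Subgroup.eq_of_le_of_card_ge hLA (by rw [← hcard, ← ht])

/-- A subgroup of index at most `r` in an elementary abelian `r`-group normalized by `x` centralizes the moved four-group. -/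
theorem exists_index_le_centralizing [Finite S] (M : Subgroup S) [M.Normal] [IsMulCommutative M]
    (hM2 : ∀ m ∈ M, m ^ 2 = 1) (r : ℕ) [hr : Fact r.Prime] (hr2 : r ≠ 2) (A : Subgroup S)
    [IsMulCommutative A] (hexp : ∀ a ∈ A, a ^ r = 1) (x : S) (hxA : ∀ a ∈ A, x * a * x⁻¹ ∈ A)
    (hx3 : x ^ 3 ∈ Subgroup.centralizer (M : Set S)) :
    letI : CommGroup M := { (inferInstance : Group M) with mul_comm := fun a b => Std.Commutative.comm a b }
    Nat.card (delta (MulAut.conjNormal (H := M) x)).range = 4 →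
      ∃ K ≤ A, Nat.card A ≤ r * Nat.card K ∧
        ∀ k ∈ K, ∀ m : M, k * (x * m * x⁻¹ * (m : S)⁻¹) = (x * m * x⁻¹ * (m : S)⁻¹) * k := by
  letI : CommGroup M := { (inferInstance : Group M) with mul_comm := fun a b => Std.Commutative.comm a b }
  intro hW
  set act : S →* MulAut M := MulAut.conjNormal with hact
  set X := act x with hXdef
  have hU : ∀ u : M, u ^ 2 = 1 := fun u => Subtype.ext (by rw [Subgroup.coe_pow, Subgroup.coe_one]; exact hM2 u u.2)
  have hcoe : ∀ (s : S) (m : M), ((act s m : M) : S) = s * m * s⁻¹ := fun s m => MulAut.conjNormal_apply s m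
  have hX3 : X ^ 3 = 1 := by
    refine MulEquiv.ext fun m => Subtype.ext ?_
    rw [hXdef, ← map_pow, hcoe, MulAut.one_apply, ← Subgroup.mem_centralizer_iff.1 hx3 m m.2,
      mul_inv_cancel_right]
  -- fixed points of a subgroup
  let C : Subgroup S → Subgroup M := fun K =>
    { carrier := {m | ∀ k ∈ K, act k m = m}
      one_mem' := fun k _ => map_one _
      mul_mem' := fun {a b} ha hb k hk => by rw [map_mul, ha k hk, hb k hk]
      inv_mem' := fun {a} ha k hk => by rw [map_inv, ha k hk] }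
  have hdone : ∀ K ≤ A, (delta X).range ≤ C K → ∀ k ∈ K, ∀ m : M,
      k * (x * m * x⁻¹ * (m : S)⁻¹) = (x * m * x⁻¹ * (m : S)⁻¹) * k := by
    intro K _ h k hk m
    have h1 := congrArg Subtype.val (h ⟨m, rfl⟩ k hk)
    rw [hcoe, delta_apply, Subgroup.coe_mul, Subgroup.coe_inv, hcoe] at h1
    exact mul_inv_eq_iff_eq_mul.1 h1
  have hWle : ∀ D : Subgroup M, (∀ d ∈ D, X d ∈ D) → ∀ m ∈ D, X m ≠ m → (delta X).range ≤ D := by
    intro D hD m hm hne
    set w := delta X m with hw
    have hw1 : w ≠ 1 := fun h => hne (delta_eq_one.1 h)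
    have hXw : X w ≠ w := fun h => hne (eq_of_delta_fixed hU (q := 3) (by decide) hX3 h)
    have hXw1 : X w ≠ 1 := fun h => hw1 (X.injective (by rw [h, map_one]))
    have hwD : w ∈ D := mul_mem (hD m hm) (inv_mem hm)
    have hsub : ({1, w, X w} : Set M) ⊆ ((delta X).range ⊓ D : Subgroup M) := by
      rintro v (rfl | rfl | rfl)
      exacts [one_mem _, ⟨⟨m, rfl⟩, hwD⟩, ⟨⟨X m, delta_comm rfl m⟩, hD w hwD⟩]
    have h3 := Set.ncard_le_ncard hsub (Set.toFinite _)
    rw [Set.ncard_eq_three.2 ⟨1, w, X w, hw1.symm, hXw1.symm, hXw.symm, rfl⟩, ← Nat.card_coe_set_eq] at h3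
    simp only [SetLike.coe_sort_coe] at h3
    have hdvd : Nat.card ↥((delta X).range ⊓ D) ∣ 4 := hW ▸ Subgroup.card_dvd_of_le inf_le_left
    have h4 : Nat.card ↥((delta X).range ⊓ D) = 4 := by
      have := Nat.le_of_dvd (by norm_num) hdvd
      interval_cases h : Nat.card ↥((delta X).range ⊓ D) <;> first | rfl | (norm_num at hdvd)
    have heq := Subgroup.eq_of_le_of_card_ge (inf_le_left : (delta X).range ⊓ D ≤ _) (by rw [h4, hW])
    exact heq ▸ inf_le_right
  -- conjugates of subgroups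
  let conjS : Subgroup S → Subgroup S := fun K => K.map (MulAut.conj x).toMonoidHom
  have hconjC : ∀ K, ∀ m ∈ C K, X m ∈ C (conjS K) := by
    rintro K m hm _ ⟨k, hk, rfl⟩
    show act (x * k * x⁻¹) (act x m) = act x m
    rw [← MulAut.mul_apply, ← map_mul, inv_mul_cancel_right, map_mul, MulAut.mul_apply, hm k hk]
  by_cases hA : A = ⊥
  · exact ⟨⊥, bot_le, by rw [hA, Subgroup.card_bot, mul_one]; exact hr.out.one_le,
      fun k hk m => by rw [Subgroup.mem_bot.1 hk, one_mul, mul_one]⟩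
  by_cases hCA : ∃ m ∈ C A, X m ≠ m
  · obtain ⟨m, hm, hne⟩ := hCA
    refine ⟨A, le_rfl, Nat.le_mul_of_pos_left _ hr.out.pos, hdone A le_rfl (hWle _ ?_ m hm hne)⟩
    intro d hd a ha
    have hfin : ∃ b ∈ A, x * b * x⁻¹ = a := by
      have hle : conjS A ≤ A := by rintro _ ⟨b, hb, rfl⟩; exact hxA b hb
      have heq : conjS A = A := Subgroup.eq_of_le_of_card_ge hle
        (le_of_eq (Subgroup.card_map_of_injective (MulAut.conj x).injective).symm)
      obtain ⟨b, hb, hba⟩ := heq.symm ▸ ha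
      exact ⟨b, hb, hba⟩
    obtain ⟨b, hb, rfl⟩ := hfin
    exact hconjC A d hd _ ⟨b, hb, rfl⟩
  push Not at hCA
  obtain ⟨K, hKA, hKidx, m, hm, hne⟩ : ∃ K ≤ A, K.relIndex A = r ∧ ∃ m ∈ C K, X m ≠ m := by
    by_contra h
    push Not at h
    have hfix : M ≤ Subgroup.centralizer ({x} : Set S) := by
      refine CfsgLib.CoprimeAction.le_of_hyperplane_centralizers_le hA hexp
        (Subgroup.normalizer_eq_top (H := M) ▸ le_top) ?_ fun B hB hidx => ?_
      · have hA' : IsPGroup r A := fun a => ⟨1, Subtype.ext (by rw [pow_one]; exact hexp a a.2)⟩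
        haveI : Fact (Nat.Prime 2) := ⟨Nat.prime_two⟩
        exact IsPGroup.coprime_card_of_ne r 2 hr2 A M hA' (fun u : M => ⟨1, by rw [pow_one]; exact hU u⟩)
      · intro y hy
        obtain ⟨hyM, hyB⟩ := Subgroup.mem_inf.1 hy
        have := congrArg Subtype.val (h B hB hidx ⟨y, hyM⟩ fun b hb => Subtype.ext (by
          rw [hcoe, Subgroup.mem_centralizer_iff.1 hyB b hb, mul_inv_cancel_right]))
        rw [hcoe] at this
        rw [Subgroup.mem_centralizer_singleton_iff]
        exact (mul_inv_eq_iff_eq_mul.1 this).symm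
    have hbot : (delta X).range = ⊥ := by
      rw [eq_bot_iff]
      rintro _ ⟨u, rfl⟩
      refine Subgroup.mem_bot.2 (delta_eq_one.2 (Subtype.ext ?_))
      rw [hcoe, ← Subgroup.mem_centralizer_singleton_iff.1 (hfix u.2), mul_inv_cancel_right]
    rw [hbot, Subgroup.card_bot] at hW
    omega
  have hcard : Nat.card K * r = Nat.card A := by
    rw [← hKidx, ← Subgroup.relIndex_bot_left (H := K), ← Subgroup.relIndex_bot_left (H := A)]
    exact Subgroup.relIndex_mul_relIndex _ _ _ bot_le hKA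
  have hconjA : ∀ L ≤ A, conjS L ≤ A := by
    rintro L hL _ ⟨l, hl, rfl⟩
    exact hxA l (hL hl)
  have hconjcard : ∀ L, Nat.card (conjS L) = Nat.card L := fun L =>
    Subgroup.card_map_of_injective (MulAut.conj x).injective
  by_cases hinv : conjS K ≤ K
  · have heq : conjS K = K := Subgroup.eq_of_le_of_card_ge hinv (hconjcard K).ge
    exact ⟨K, hKA, le_of_eq (by rw [← hcard, mul_comm]), hdone K hKA (hWle _ (fun d hd => heq ▸ hconjC K d hd) m hm hne)⟩
  exfalso
  set K' := conjS K with hK'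
  set K'' := conjS K' with hK''
  have hK'A : K' ≤ A := hconjA K hKA
  have hK''A : K'' ≤ A := hconjA K' hK'A
  have hcard' : Nat.card K' * r = Nat.card A := by rw [hK', hconjcard, hcard]
  -- fixed points of two distinct hyperplanes
  have hCsup : ∀ L₁ L₂ : Subgroup S, L₁ ⊔ L₂ = A → ∀ u, u ∈ C L₁ → u ∈ C L₂ → u ∈ C A := by
    intro L₁ L₂ hL u h1 h2 a ha
    have hle : L₁ ⊔ L₂ ≤ (MulAction.stabilizer (MulAut M) u).comap act :=
      sup_le (fun k hk => h1 k hk) (fun k hk => h2 k hk)
    exact hle (hL ▸ ha)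
  have hsup : ∀ a ∈ A, a ∉ K → K ⊔ Subgroup.zpowers a = A := fun a ha haK =>
    eq_of_lt_of_card le_sup_left (sup_le hKA (Subgroup.zpowers_le.2 ha))
      (fun h => haK (h (Subgroup.mem_sup_right (Subgroup.mem_zpowers a)))) hcard
  have hKK' : K ⊔ K' = A := eq_of_lt_of_card le_sup_left (sup_le hKA hK'A)
    (fun h => hinv (le_sup_right.trans h)) hcard
  have hkey : ∀ u ∈ C K, X u = u → u ∈ C A := fun u hu hfix =>
    hCsup K K' hKK' u hu (hfix ▸ hconjC K u hu)
  have hmA : m ∉ C A := fun h => hne (hCA m h)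
  have hcommA : ∀ a ∈ A, ∀ b ∈ A, act a * act b = act b * act a := fun a ha b hb => by
    rw [← map_mul, ← map_mul, show a * b = b * a from congrArg Subtype.val
      (Std.Commutative.comm (op := fun (u v : A) => u * v) ⟨a, ha⟩ ⟨b, hb⟩)]
  have hApres : ∀ L ≤ A, ∀ a ∈ A, ∀ u ∈ C L, act a u ∈ C L := fun L hL a ha u hu k hk => by
    rw [← MulAut.mul_apply, hcommA k (hL hk) a ha, MulAut.mul_apply, hu k hk]
  -- a moved element generates the four-group modulo the common fixed points
  have hbig : (C K).map (delta X) = (delta X).range := by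
    obtain ⟨a, ha, haK⟩ : ∃ a ∈ A, a ∉ K := by
      by_contra h
      push Not at h
      exact hinv ((hconjA K hKA).trans h)
    have hamov : act a m ≠ m := fun h => hmA (hCsup K (Subgroup.zpowers a) (hsup a ha haK) m hm (by
      intro k hk
      obtain ⟨i, rfl⟩ := (isOfFinOrder_of_finite a).mem_powers_iff_mem_zpowers.2 hk
      show act (a ^ i) m = m
      rw [map_pow]
      exact pow_fixed h i))
    have hmaK := hApres K hKA a ha m hm
    have hra : act a ^ r = 1 := by rw [← map_pow, hexp a ha, map_one]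
    have h1 : delta X m ≠ 1 := fun h => hne (delta_eq_one.1 h)
    have h2 : delta X (act a m) ≠ 1 := fun h => by
      apply hmA
      intro k hk
      have := hkey _ hmaK (delta_eq_one.1 h) k hk
      rw [← MulAut.mul_apply, hcommA k hk a ha, MulAut.mul_apply] at this
      exact (act a).injective this
    have h3 : delta X (act a m) ≠ delta X m := fun h => by
      have hq : delta (act a) m ∈ C A := by
        refine hkey _ (mul_mem hmaK (inv_mem hm)) (delta_eq_one.1 ?_)
        rw [delta_apply (act a), map_mul, map_inv, h, mul_inv_cancel]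
      exact hamov (eq_of_delta_fixed hU (hr.out.odd_of_ne_two hr2) hra (hq a ha))
    have hle : (C K).map (delta X) ≤ (delta X).range := by
      rintro _ ⟨u, -, rfl⟩
      exact ⟨u, rfl⟩
    have hsub : ({1, delta X m, delta X (act a m)} : Set M) ⊆ ((C K).map (delta X) : Subgroup M) := by
      rintro v (rfl | rfl | rfl)
      exacts [one_mem _, ⟨m, hm, rfl⟩, ⟨_, hmaK, rfl⟩]
    have h := Set.ncard_le_ncard hsub (Set.toFinite _)
    rw [Set.ncard_eq_three.2 ⟨1, _, _, h1.symm, h2.symm, h3.symm, rfl⟩, ← Nat.card_coe_set_eq] at h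
    simp only [SetLike.coe_sort_coe] at h
    refine Subgroup.eq_of_le_of_card_ge hle ?_
    rw [hW]
    have hd : Nat.card ↥((C K).map (delta X)) ∣ 4 := hW ▸ Subgroup.card_dvd_of_le hle
    have := Nat.le_of_dvd (by norm_num) hd
    interval_cases h' : Nat.card ↥((C K).map (delta X)) <;> omega
  obtain ⟨m', hm', hmm'⟩ : delta X (X⁻¹ m) ∈ (C K).map (delta X) := hbig.symm ▸ ⟨_, rfl⟩
  set n' := X m' with hn'
  set n'' := X n' with hn''
  set m1 := X m with hm1
  have hn'mem : n' ∈ C K' := hconjC K m' hm'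
  have hn''mem : n'' ∈ C K'' := hconjC K' n' hn'mem
  have hm1mem : m1 ∈ C K' := hconjC K m hm
  have hrel : m = n' * m1 * n''⁻¹ := by
    have h : delta X n' = delta X m := by
      rw [hn', delta_comm rfl, hmm', ← delta_comm (a := X) rfl]
      exact congrArg (delta X) (X.apply_symm_apply m)
    rw [delta_apply, delta_apply, ← hn'', ← hm1, ← div_eq_mul_inv, ← div_eq_mul_inv,
      div_eq_div_iff_mul_eq_mul] at h
    rw [mul_comm n' m1, ← h, mul_comm n'' m, mul_inv_cancel_right]
  have hK''ne : ¬ K'' ≤ K := by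
    intro h
    apply hinv
    have heq : K'' = K := Subgroup.eq_of_le_of_card_ge h (le_of_eq (by rw [hK'', hconjcard, hK', hconjcard]))
    rintro _ ⟨k, hk, rfl⟩
    -- two steps and a power of `x` that centralizes nothing in question
    by_contra hnk
    exact hne (hCA m fun a ha => by
      have hcube : ∀ u, u ∈ C K' → X (X u) ∈ C (conjS K'') := fun u hu => hconjC K'' _ (hconjC K' u hu)
      have h1 : m ∈ C K' := by
        have h2 : X (X m) ∈ C K'' := hconjC K' _ (hconjC K m hm)
        rw [heq] at h2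
        have h3 := hconjC K _ h2
        rwa [← MulAut.mul_apply, ← MulAut.mul_apply, ← pow_two, ← pow_succ, hX3, MulAut.one_apply,
          ← hK'] at h3
      exact hCsup K K' hKK' m hm h1 a ha)
  have hKK'' : K ⊔ K'' = A := eq_of_lt_of_card le_sup_left (sup_le hKA hK''A)
    (fun h => hK''ne (le_sup_right.trans h)) hcard
  obtain ⟨a, haK', haK⟩ : ∃ a ∈ K', a ∉ K := by
    by_contra h
    push Not at h
    exact hinv h
  have ha : a ∈ A := hK'A haK'
  have hra : act a ^ r = 1 := by rw [← map_pow, hexp a ha, map_one]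
  have hd : delta (act a) m = (delta (act a) n'')⁻¹ := by
    conv_lhs => rw [hrel]
    rw [map_mul, map_mul, map_inv, delta_eq_one.2 (hn'mem a haK'), delta_eq_one.2 (hm1mem a haK'),
      one_mul, one_mul]
  have hq : delta (act a) m ∈ C A := hCsup K K'' hKK'' _ (mul_mem (hApres K hKA a ha m hm) (inv_mem hm))
    (hd ▸ inv_mem (mul_mem (hApres K'' hK''A a ha n'' hn''mem) (inv_mem hn''mem)))
  have hfix : act a m = m := eq_of_delta_fixed hU (hr.out.odd_of_ne_two hr2) hra (hq a ha)
  refine hmA (hCsup K (Subgroup.zpowers a) (hsup a ha haK) m hm ?_)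
  intro k hk
  obtain ⟨i, rfl⟩ := (isOfFinOrder_of_finite a).mem_powers_iff_mem_zpowers.2 hk
  show act (a ^ i) m = m
  rw [map_pow]
  exact pow_fixed hfix i

/-- In a solvable group of 3-rank at most two, an element of 3-power order normalizes a `p`-subgroup of
maximal rank, for a prime `p ≥ 5`. -/
theorem exists_normalized_pGroup [Finite S] [Group.IsSolvable S] {p : ℕ} [hp : Fact p.Prime] (hp5 : 5 ≤ p)
    (hrk : ∀ B : Subgroup S, IsMulCommutative B → (∀ b ∈ B, b ^ 3 = 1) → Nat.card B ≤ 9)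
    (x : S) (hx : IsPGroup 3 (Subgroup.zpowers x)) (E : Subgroup S) (hE : IsPGroup p E) :
    ∃ (O : Subgroup S) (g : S), IsPGroup p O ∧ (∀ a ∈ O, x * a * x⁻¹ ∈ O) ∧
      E.map (MulAut.conj g).toMonoidHom ≤ O := by
  haveI : Fact (Nat.Prime 3) := ⟨Nat.prime_three⟩
  let π : Set ℕ := {3, p}
  obtain ⟨H, hH, hxH⟩ := CfsgLib.Hall.exists_isPiHall_ge (π := π)
    (CfsgLib.Hall.isPiSubgroup_of_isPGroup Nat.prime_three (Set.mem_insert _ _) hx)
  obtain ⟨g, hg⟩ := CfsgLib.Hall.pi_dominance hH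
    (CfsgLib.Hall.isPiSubgroup_of_isPGroup (π := π) hp.out (Set.mem_insert_of_mem _ rfl) hE)
  have hEH : E.map (MulAut.conj g⁻¹).toMonoidHom ≤ H := by
    rintro _ ⟨e, he, rfl⟩
    have := Subgroup.mem_pointwise_smul_iff_inv_smul_mem.1 (hg he)
    simpa [MulAut.smul_def] using this
  set N := Cfsg.pCore p H with hN
  have hNp : IsPGroup p N := CfsgLib.PCore.isPGroup_pCore p H
  haveI := CfsgLib.PCore.pCore_characteristic p H
  haveI hNn : N.Normal := Subgroup.normal_of_characteristic _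
  have hbot : Cfsg.pCore p (H ⧸ N) = ⊥ := CfsgLib.PCore.pCore_quotient
  have hppc : Cfsg.pPrimeCore 3 (H ⧸ N) = ⊥ := by
    rw [eq_bot_iff, ← hbot]
    haveI := CfsgLib.PCore.pPrimeCore_characteristic 3 (H ⧸ N)
    refine CfsgLib.PCore.le_pCore (Subgroup.normal_of_characteristic _) ?_
    rw [IsPGroup.iff_card]
    refine ⟨_, Nat.eq_prime_pow_of_unique_prime_dvd Nat.card_pos.ne' fun {q} hq hqd => ?_⟩
    have hq3 : q ≠ 3 := fun h => CfsgLib.PCore.not_dvd_card_pPrimeCore 3 (H ⧸ N) (h ▸ hqd)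
    have hqH : q ∣ Nat.card H := hqd.trans ((Subgroup.card_subgroup_dvd_card _).trans (Subgroup.card_quotient_dvd_card N))
    rcases hH.1 q hq hqH with h | h
    · exact absurd h hq3
    · exact h
  have hcent := CfsgLib.Hall.centralizer_pCore_le (G := H ⧸ N) 3 hppc
  set R := Cfsg.pCore 3 (H ⧸ N) with hR
  have hR3 : IsPGroup 3 R := CfsgLib.PCore.isPGroup_pCore 3 _
  haveI := CfsgLib.PCore.pCore_characteristic 3 (H ⧸ N)
  haveI hRn : R.Normal := Subgroup.normal_of_characteristic _
  have hRrk : ∀ B : Subgroup R, IsMulCommutative B → (∀ b ∈ B, b ^ 3 = 1) → Nat.card B ≤ 3 ^ 2 := by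
    intro B hB hBe
    haveI := hB
    obtain ⟨P⟩ : Nonempty (Sylow 3 H) := inferInstance
    have hs : Function.Surjective (QuotientGroup.mk' N) := QuotientGroup.mk'_surjective N
    have hRP : R ≤ (P : Subgroup H).map (QuotientGroup.mk' N) :=
      CfsgLib.PCore.pCore_le_sylow (P.mapSurjective hs)
    have hinj : ∀ a ∈ (P : Subgroup H), ∀ b ∈ (P : Subgroup H),
        QuotientGroup.mk' N a = QuotientGroup.mk' N b → a = b := by
      intro a ha b hb h
      have hmem : a⁻¹ * b ∈ (P : Subgroup H) ⊓ N := Subgroup.mem_inf.2 ⟨mul_mem (inv_mem ha) hb, QuotientGroup.eq.1 h⟩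
      rw [(CfsgLib.Hall.inf_eq_bot_of_coprime_card (IsPGroup.coprime_card_of_ne 3 p (by omega) (P : Subgroup H) N P.2 hNp)),
        Subgroup.mem_bot] at hmem
      exact inv_mul_eq_one.1 hmem
    set B' : Subgroup (H ⧸ N) := B.map R.subtype with hB'
    set B'' : Subgroup H := B'.comap (QuotientGroup.mk' N) ⊓ (P : Subgroup H) with hB''
    have hmapB : B''.map (QuotientGroup.mk' N) = B' := by
      refine le_antisymm (Subgroup.map_le_iff_le_comap.2 inf_le_left) fun b hb => ?_
      obtain ⟨a, ha, rfl⟩ := hRP (Subgroup.map_subtype_le B hb)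
      exact ⟨a, ⟨hb, ha⟩, rfl⟩
    have hB'e : ∀ b ∈ B', b ^ 3 = 1 := by
      rintro _ ⟨b, hb, rfl⟩
      rw [← map_pow, hBe b hb, map_one]
    haveI hB'c : IsMulCommutative B' := inferInstance
    have hinjB : Function.Injective ((QuotientGroup.mk' N).comp B''.subtype) := fun a b h =>
      Subtype.ext (hinj a a.2.2 b b.2.2 h)
    haveI : IsMulCommutative B'' := ⟨⟨fun a b => hinjB (by
      rw [map_mul, map_mul]
      exact congrArg Subtype.val (Std.Commutative.comm (op := fun (u v : B') => u * v)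
        ⟨_, hmapB ▸ ⟨a, a.2, rfl⟩⟩ ⟨_, hmapB ▸ ⟨b, b.2, rfl⟩⟩))⟩⟩
    have h := hrk (B''.map H.subtype) inferInstance (by
      rintro _ ⟨a, ha, rfl⟩
      rw [← map_pow]
      refine (congrArg H.subtype (congrArg Subtype.val (hinjB (a₁ := ⟨a, ha⟩ ^ 3) (a₂ := 1) ?_))).trans (map_one _)
      rw [map_pow, map_one]
      exact hB'e _ (hmapB ▸ ⟨a, ha, rfl⟩))
    rw [Subgroup.card_map_of_injective H.subtype_injective] at h
    refine le_trans (le_of_eq ?_) h
    rw [← Subgroup.card_map_of_injective R.subtype_injective, ← hB', ← hmapB]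
    refine Nat.card_congr (Equiv.ofBijective (fun a => ⟨_, a, a.2, rfl⟩) ⟨fun a b h => hinjB (congrArg Subtype.val h), ?_⟩).symm
    rintro ⟨_, a, ha, rfl⟩
    exact ⟨⟨a, ha⟩, rfl⟩
  have hndvd : ¬ p ∣ Nat.card (H ⧸ N) := by
    intro hd
    obtain ⟨y, hy⟩ := exists_prime_orderOf_dvd_card' p hd
    have hdvd : orderOf (MulAut.conjNormal (H := R) y) ∣ p :=
      hy ▸ orderOf_map_dvd _ y
    rcases (Nat.dvd_prime hp.out).1 hdvd with h1 | h1
    · have hyC : y ∈ Subgroup.centralizer (R : Set (H ⧸ N)) := by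
        rw [Subgroup.mem_centralizer_iff]
        intro z hz
        have := congrArg (fun f : MulAut R => ((f ⟨z, hz⟩ : R) : H ⧸ N)) (orderOf_eq_one_iff.1 h1)
        simp only [MulAut.conjNormal_apply, MulAut.one_apply] at this
        exact (mul_inv_eq_iff_eq_mul.1 this).symm
      obtain ⟨k, hk⟩ := hR3 ⟨y, hcent hyC⟩
      have hk' : y ^ 3 ^ k = 1 := congrArg Subtype.val hk
      have := orderOf_dvd_of_pow_eq_one hk'
      rw [hy] at this
      have := (Nat.prime_dvd_prime_iff_eq hp.out Nat.prime_three).1 (hp.out.dvd_of_dvd_pow this)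
      omega
    · have := CfsgLib.PLocalBasics.aut_prime_divisor (p := 3) (by norm_num) hR3 hRrk hp.out (by omega) h1
      have h8 : p ∣ 8 := by simpa using this
      have := Nat.le_of_dvd (by norm_num) h8
      have hpr := hp.out
      interval_cases p <;> first | omega | (exfalso; revert h8 hpr; norm_num)
  refine ⟨N.map H.subtype, g⁻¹, hNp.map _, ?_, ?_⟩
  · rintro _ ⟨a, ha, rfl⟩
    exact ⟨⟨x, hxH (Subgroup.mem_zpowers x)⟩ * a * ⟨x, hxH (Subgroup.mem_zpowers x)⟩⁻¹,
      hNn.conj_mem a ha _, rfl⟩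
  · intro e he
    refine ⟨⟨e, hEH he⟩, ?_, rfl⟩
    show (⟨e, hEH he⟩ : H) ∈ N
    rw [← QuotientGroup.eq_one_iff, ← orderOf_eq_one_iff]
    by_contra hne
    obtain ⟨q, hq, hqd⟩ := Nat.exists_prime_and_dvd hne
    obtain ⟨k, hk⟩ := (hE.map (MulAut.conj g⁻¹).toMonoidHom) ⟨e, he⟩
    have hk' : (QuotientGroup.mk ⟨e, hEH he⟩ : H ⧸ N) ^ p ^ k = 1 := by
      rw [← QuotientGroup.mk_pow, QuotientGroup.eq_one_iff,
        show (⟨e, hEH he⟩ : H) ^ p ^ k = 1 from Subtype.ext (show e ^ p ^ k = 1 from (SubmonoidClass.coe_pow (⟨e, he⟩ : ↥(E.map (MulAut.conj g⁻¹).toMonoidHom)) (p ^ k)).symm.trans (congrArg Subtype.val hk))]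
      exact one_mem _
    have hqp := (Nat.prime_dvd_prime_iff_eq hq hp.out).1
      (hq.dvd_of_dvd_pow (hqd.trans (orderOf_dvd_of_pow_eq_one hk')))
    exact hndvd (hqp ▸ hqd.trans (orderOf_dvd_natCard _))

/-- For `p ≥ 5`, a normalized `p`-group leaves at least `p ^ 2` elements of an elementary `p ^ 3` centralizing the four-group. -/
theorem exists_centralizing_large [Finite S] (M : Subgroup S) [M.Normal] [IsMulCommutative M]
    (hM2 : ∀ m ∈ M, m ^ 2 = 1) {p : ℕ} [hp : Fact p.Prime] (hp5 : 5 ≤ p) (O : Subgroup S)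
    (hO : IsPGroup p O) (x : S) (hxO : ∀ a ∈ O, x * a * x⁻¹ ∈ O)
    (hx3 : x ^ 3 ∈ Subgroup.centralizer (M : Set S)) (E : Subgroup S) (hEO : E ≤ O)
    [IsMulCommutative E] (hexp : ∀ e ∈ E, e ^ p = 1) :
    letI : CommGroup M := { (inferInstance : Group M) with mul_comm := fun a b => Std.Commutative.comm a b }
    Nat.card (delta (MulAut.conjNormal (H := M) x)).range = 4 →
      ∃ K ≤ E, Nat.card E ≤ p * Nat.card K ∧
        ∀ k ∈ K, ∀ m : M, k * (x * m * x⁻¹ * (m : S)⁻¹) = (x * m * x⁻¹ * (m : S)⁻¹) * k := by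
  letI : CommGroup M := { (inferInstance : Group M) with mul_comm := fun a b => Std.Commutative.comm a b }
  intro hW
  set act : S →* MulAut M := MulAut.conjNormal with hact
  set X := act x with hXdef
  set W := (delta X).range with hWdef
  have hUM : ∀ u : M, u ^ 2 = 1 := fun u => Subtype.ext (by rw [Subgroup.coe_pow, Subgroup.coe_one]; exact hM2 u u.2)
  have hcoe : ∀ (s : S) (m : M), ((act s m : M) : S) = s * m * s⁻¹ := fun s m => MulAut.conjNormal_apply s m
  have hX3 : X ^ 3 = 1 := by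
    refine MulEquiv.ext fun m => Subtype.ext ?_
    rw [hXdef, ← map_pow, hcoe, MulAut.one_apply, ← Subgroup.mem_centralizer_iff.1 hx3 m m.2,
      mul_inv_cancel_right]
  obtain ⟨U, ⟨hUO, hUX, hWU⟩, hUmin⟩ := (Set.toFinite {D : Subgroup M |
      (∀ a ∈ O, ∀ d ∈ D, act a d ∈ D) ∧ (∀ d ∈ D, X d ∈ D) ∧ W ≤ D}).exists_minimal
    ⟨⊤, fun _ _ _ _ => trivial, fun _ _ => trivial, le_top⟩
  let Ns : Subgroup S :=
    { carrier := {s | ∀ u ∈ U, act s u ∈ U}
      one_mem' := fun u hu => by rwa [map_one, MulAut.one_apply]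
      mul_mem' := fun {a b} ha hb u hu => by rw [map_mul, MulAut.mul_apply]; exact ha _ (hb u hu)
      inv_mem' := fun {a} ha u hu => by
        have hle : U.map (act a).toMonoidHom ≤ U := by rintro _ ⟨v, hv, rfl⟩; exact ha v hv
        have heq := Subgroup.eq_of_le_of_card_ge hle
          (le_of_eq (Subgroup.card_map_of_injective (act a).injective).symm)
        obtain ⟨v, hv, rfl⟩ := heq.symm ▸ hu
        rw [map_inv]
        show (act a).symm (act a v) ∈ U
        rwa [MulEquiv.symm_apply_apply] }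
  let φ : Ns →* MulAut U :=
    { toFun := fun s =>
        { toFun := fun u => ⟨act (s : S) u, s.2 u u.2⟩
          invFun := fun u => ⟨act ((s⁻¹ : Ns) : S) u, (s⁻¹).2 u u.2⟩
          left_inv := fun u => Subtype.ext (by
            show act ((s : S)⁻¹) (act (s : S) u) = u
            rw [map_inv]; exact (act (s : S)).symm_apply_apply _)
          right_inv := fun u => Subtype.ext (by
            show act (s : S) (act ((s : S)⁻¹) u) = u
            rw [map_inv]; exact (act (s : S)).apply_symm_apply _)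
          map_mul' := fun u v => Subtype.ext (map_mul (act (s : S)) (u : M) v) }
      map_one' := MulEquiv.ext fun u => Subtype.ext (by
        show act 1 (u : M) = u
        rw [map_one, MulAut.one_apply])
      map_mul' := fun s t => MulEquiv.ext fun u => Subtype.ext (by
        show act ((s : S) * t) (u : M) = act (s : S) (act (t : S) u)
        rw [map_mul, MulAut.mul_apply]) }
  have hON : O ≤ Ns := fun a ha u hu => hUO a ha u hu
  have hxN : x ∈ Ns := hUX
  set XU := φ ⟨x, hxN⟩ with hXU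
  set OU := (O.subgroupOf Ns).map φ with hOU
  have hU2 : ∀ u : U, u ^ 2 = 1 := fun u => Subtype.ext (by rw [Subgroup.coe_pow, Subgroup.coe_one]; exact hUM u)
  have hdcoe : ∀ u : U, ((delta XU u : U) : M) = delta X (u : M) := fun u => rfl
  have hrange : (delta XU).range.map U.subtype = W := by
    refine le_antisymm (by rintro _ ⟨_, ⟨u, rfl⟩, rfl⟩; exact ⟨u, (hdcoe u).symm⟩) ?_
    rintro _ ⟨m, rfl⟩
    obtain ⟨e, he, hee⟩ := exists_delta_eq hUM (q := 3) (by decide) hX3 m
    exact ⟨_, ⟨⟨e, hWU he⟩, rfl⟩, hee⟩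
  have hWc : Nat.card (delta XU).range = 4 := by
    rw [← hW, ← hrange, Subgroup.card_map_of_injective U.subtype_injective]
  let f : E →* MulAut U := φ.comp (Subgroup.inclusion (hEO.trans hON))
  have hcardf : Nat.card f.range ≤ p := by
    by_cases h : OU = ⊥
    · have : f.range = ⊥ := by
        rw [eq_bot_iff, ← h]
        rintro _ ⟨e, rfl⟩
        exact ⟨_, hEO e.2, rfl⟩
      rw [this, Subgroup.card_bot]
      exact hp.out.one_le
    refine card_range_le hU2 hp5 (fun a b => Std.Commutative.comm a b)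
      (fun a => Subtype.ext (by simpa using hexp a a.2)) f ?_
    refine card_le_sixteen hU2 hp5 XU ?_ OU ((hO.comap_subtype).map φ) h ?_ hWc ?_
    · refine MulEquiv.ext fun u => Subtype.ext ?_
      rw [hXU, ← map_pow]
      show act (x ^ 3) (u : M) = u
      rw [map_pow, ← hXdef, hX3, MulAut.one_apply]
    · rintro _ ⟨a, ha, rfl⟩
      exact ⟨⟨x, hxN⟩ * a * ⟨x, hxN⟩⁻¹, hxO _ ha, by rw [map_mul, map_mul, map_inv]⟩
    · intro D hDO hDX hWD
      have hle : U ≤ D.map U.subtype := by
        refine hUmin ⟨?_, ?_, ?_⟩ (Subgroup.map_subtype_le D)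
        · rintro a ha _ ⟨d, hd, rfl⟩
          exact ⟨φ ⟨a, hON ha⟩ d, hDO _ ⟨_, ha, rfl⟩ d hd, rfl⟩
        · rintro _ ⟨d, hd, rfl⟩
          exact ⟨XU d, hDX d hd, rfl⟩
        · rw [← hrange]
          exact Subgroup.map_mono hWD
      rw [eq_top_iff]
      intro u _
      obtain ⟨d, hd, hdu⟩ := hle u.2
      exact (Subtype.ext hdu : d = u) ▸ hd
  refine ⟨f.ker.map E.subtype, Subgroup.map_subtype_le _, ?_, ?_⟩
  · rw [Subgroup.card_map_of_injective E.subtype_injective, ← Subgroup.card_mul_index f.ker,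
      Subgroup.index_ker, mul_comm p]
    exact Nat.mul_le_mul le_rfl hcardf
  · rintro _ ⟨k, hk, rfl⟩ m
    have h := congrArg Subtype.val (congrArg (fun z : U => (z : M))
      (DFunLike.congr_fun (MonoidHom.mem_ker.1 hk) ⟨delta X m, hWU ⟨m, rfl⟩⟩))
    change ((act (k : S) (delta X m) : M) : S) = ((delta X m : M) : S) at h
    rw [hcoe, delta_apply, Subgroup.coe_mul, Subgroup.coe_inv, hcoe] at h
    exact mul_inv_eq_iff_eq_mul.1 h

end CfsgLib.MovingFour
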